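import Cfsg.Agent.H547.SelfCent.Conway
import Cfsg.Agent.H721.SR.Base
import Cfsg.Agent.BiChar.SmallCard

/-!
# TEAM SR: the elements of order 23 of the Conway groups are not real (helper220, task 3866 of helper721)

An element of `Co0` inverting the cyclic shift of order 23 is monomial, and its permutation part inverts the shift in
`M24`; but the normalizer of a Sylow 23-subgroup of `M24` has order 253.
-/

set_option autoImplicit false

namespace Cfsg.Agent.H220.SR.Conway

open Subgroup Cfsg Cfsg.Agent.H721.SR Cfsg.Agent.H547.SelfCent Cfsg.Agent.H547.SelfCent.Conway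
open Cfsg.Agent.SporadicA.Co0Mono Cfsg.Agent.SporadicA.Co1Simple

/-- An element inverted by an element of odd order has square one. -/
theorem sq_of_odd {G : Type*} [Group G] {x g : G} (h : g * x * g⁻¹ = x⁻¹) {n : ℕ} (hn : Odd n) (hg : g ^ n = 1) :
    x * x = 1 := by
  obtain ⟨k, rfl⟩ := hn
  have h1 : Commute (g * g) x := by
    have h2 : g * x⁻¹ * g⁻¹ = x := by
      have h0 := congrArg (fun y => y⁻¹) h
      simpa [mul_assoc] using h0
    have h3 : g * g * x * (g * g)⁻¹ = x := by
      calc g * g * x * (g * g)⁻¹ = g * (g * x * g⁻¹) * g⁻¹ := by group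
        _ = x := by rw [h, h2]
    exact mul_inv_eq_iff_eq_mul.1 h3
  have h4 : g = ((g * g) ^ k)⁻¹ := by
    rw [eq_comm, inv_eq_iff_mul_eq_one, ← pow_two, ← pow_mul, ← pow_succ]
    exact hg
  have h5 : Commute g x := by
    rw [h4]
    exact (h1.pow_left k).inv_left
  have h6 : x⁻¹ = x := by
    rw [← h, h5.eq, mul_inv_cancel_right]
  calc x * x = x * x⁻¹ := by rw [h6]
    _ = 1 := mul_inv_cancel x

theorem orderOf_shift : orderOf shift = 23 := by
  have : Fact (Nat.Prime 23) := ⟨by norm_num⟩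
  refine orderOf_eq_prime shift_pow_23 fun h1 => ?_
  apply x23_ne_one
  rw [x23, h1, map_one]

theorem shift_not {σ : M24} (h : σ * shift * σ⁻¹ = shift⁻¹) : False := by
  have hs : IsSimpleGroup M24 := Cfsg.Agent.S0365.result
  have hcard : Nat.card M24 = 244823040 := Cfsg.Agent.S0364.result
  have hfin : Finite M24 := Nat.finite_of_card_ne_zero (by rw [hcard]; norm_num)
  have : Fact (Nat.Prime 23) := ⟨by norm_num⟩
  have ho := orderOf_shift
  have hz : IsPGroup 23 (zpowers shift) := IsPGroup.of_card (n := 1) (by rw [Nat.card_zpowers, ho, pow_one])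
  obtain ⟨P, hP⟩ := hz.exists_le_sylow
  have hPc := SporadicA.M24.Sylow23.card_P hcard P
  have heq : zpowers shift = (P : Subgroup M24) := by
    apply Subgroup.eq_of_le_of_card_ge hP
    rw [hPc, Nat.card_zpowers, ho]
  have hc := SporadicA.M24.Sylow23.centralizer_eq hcard P
  have hc : centralizer ((P : Subgroup M24) : Set M24) = (P : Subgroup M24) := hc
  have hr : (centralizer ((P : Subgroup M24) : Set M24)).relIndex (normalizer ((P : Subgroup M24) : Set M24)) = 11 :=
    SporadicA.M24.Sylow23.relIndex_eq hcard P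
  have hle := SmallSimple.SylowPrimeCount.centralizer_le_normalizer' (P : Subgroup M24)
  have hN : Nat.card (normalizer ((P : Subgroup M24) : Set M24)) = 253 := by
    have h1 := relIndex_mul_relIndex (⊥ : Subgroup M24) _ _ bot_le hle
    rw [relIndex_bot_left, relIndex_bot_left, hr, hc, hPc] at h1
    exact h1.symm
  have hσ : σ ∈ normalizer ((P : Subgroup M24) : Set M24) := by
    rw [← heq]
    rw [mem_normalizer_iff]
    have hk : ∀ k : ℤ, σ * shift ^ k * σ⁻¹ = shift ^ (-k) := fun k => by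
      rw [← _root_.conj_zpow, h, inv_zpow, zpow_neg]
    intro y
    constructor
    · intro hy
      obtain ⟨k, rfl⟩ := mem_zpowers_iff.1 hy
      rw [hk]
      exact zpow_mem (mem_zpowers _) _
    · intro hy
      obtain ⟨k, hk'⟩ := mem_zpowers_iff.1 hy
      have h3 : y = shift ^ (-k) := by
        have h4 := hk (-k)
        rw [neg_neg, hk'] at h4
        have h5 := mul_right_cancel h4
        exact (mul_left_cancel h5).symm
      rw [h3]
      exact zpow_mem (mem_zpowers _) _
  have h7 : σ ^ 253 = 1 := by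
    have h8 : (⟨σ, hσ⟩ : normalizer ((P : Subgroup M24) : Set M24)) ^ 253 = 1 := by
      rw [← hN]
      exact pow_card_eq_one'
    exact congrArg Subtype.val h8
  have h9 := sq_of_odd h (by decide) h7
  have h10 : orderOf shift ∣ 2 := orderOf_dvd_of_pow_eq_one (by rw [pow_two]; exact h9)
  rw [ho] at h10
  norm_num at h10

/-- `x23` is not real in `Co0`. -/
theorem x23_not {g : Co0} (h : g * x23 * g⁻¹ = x23⁻¹) : False := by
  have hgN : g ∈ N := by
    apply mem_N_of_conj
    have h1 : g⁻¹ * x23 * g = x23⁻¹ := by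
      have h2 : x23 = g * x23⁻¹ * g⁻¹ := by
        have h0 := congrArg (fun y => y⁻¹) h
        simpa [mul_assoc] using h0.symm
      calc g⁻¹ * x23 * g = g⁻¹ * (g * x23⁻¹ * g⁻¹) * g := by rw [← h2]
        _ = x23⁻¹ := by group
    rw [h1]
    exact inv_mem x23_mem_N
  obtain ⟨c, σ, rfl⟩ := exists_sign_perm hgN
  refine shift_not (σ := σ) ?_
  have h0 : signCo0 c * permCo0 σ * x23 = x23⁻¹ * (signCo0 c * permCo0 σ) := mul_inv_eq_iff_eq_mul.1 h
  have h1 : signCo0 (c + wordPerm shift⁻¹ c) * permCo0 (σ * shift * (shift⁻¹ * σ)⁻¹) = 1 := by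
    have h2 : permCo0 shift⁻¹ * (signCo0 c * permCo0 σ) = signCo0 (wordPerm shift⁻¹ c) * permCo0 (shift⁻¹ * σ) := by
      rw [← mul_assoc, perm_mul_sign, map_mul, mul_assoc]
    rw [show x23⁻¹ = permCo0 shift⁻¹ from (map_inv permCo0 shift).symm, show x23 = permCo0 shift from rfl, h2] at h0
    have h3 : signCo0 c * permCo0 (σ * shift) = signCo0 (wordPerm shift⁻¹ c) * permCo0 (shift⁻¹ * σ) := by
      rw [← h0, map_mul, mul_assoc]
    rw [signCo0_add, map_mul, map_inv]
    have h4 : signCo0 c * signCo0 (wordPerm shift⁻¹ c) = signCo0 (wordPerm shift⁻¹ c) * signCo0 c := by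
      rw [← signCo0_add, ← signCo0_add, add_comm]
    calc signCo0 c * signCo0 (wordPerm shift⁻¹ c) * (permCo0 (σ * shift) * (permCo0 (shift⁻¹ * σ))⁻¹)
        = signCo0 (wordPerm shift⁻¹ c) * (signCo0 c * permCo0 (σ * shift)) * (permCo0 (shift⁻¹ * σ))⁻¹ := by
          rw [h4]; group
      _ = (signCo0 (wordPerm shift⁻¹ c) * signCo0 (wordPerm shift⁻¹ c)) := by rw [h3]; group
      _ = 1 := signCo0_mul_self _
  have h5 := perm_eq_one h1
  have h6 : σ * shift = shift⁻¹ * σ := mul_inv_eq_one.1 h5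
  rw [h6, mul_inv_cancel_right]

/-- An element of order 23 of `Co0` is not real. -/
theorem co0_not {x g : Co0} (hx : orderOf x = 23) (h : g * x * g⁻¹ = x⁻¹) : False := by
  have := finite_co0
  obtain ⟨c, -, hc2⟩ := exists_conj (by norm_num : Nat.Prime 23) (by rw [card_co0]; norm_num) orderOf_x23 hx
  obtain ⟨k, hk⟩ := mem_zpowers_iff.1 hc2
  refine x23_not (g := c * g * c⁻¹) ?_
  have h1 : c * g * c⁻¹ * (c * x * c⁻¹) * (c * g * c⁻¹)⁻¹ = (c * x * c⁻¹)⁻¹ := by
    calc c * g * c⁻¹ * (c * x * c⁻¹) * (c * g * c⁻¹)⁻¹ = c * (g * x * g⁻¹) * c⁻¹ := by group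
      _ = (c * x * c⁻¹)⁻¹ := by rw [h]; group
  rw [← hk, ← _root_.conj_zpow, h1, inv_zpow]

/-- A group embedded in `Co0` of order divisible by 23 has a non-real element. -/
theorem nrel_of_injective {G : Type*} [Group G] [Finite G] (f : G →* Co0) (hf : Function.Injective f)
    (hd : 23 ∣ Nat.card G) : NRel G := by
  have : Fact (Nat.Prime 23) := ⟨by norm_num⟩
  obtain ⟨x, hx⟩ := exists_prime_orderOf_dvd_card' 23 hd
  refine ⟨x, fun hc => ?_⟩
  obtain ⟨g, hg⟩ := isConj_iff.1 hc
  refine co0_not (x := f x) (g := f g) (by rw [orderOf_injective f hf, hx]) ?_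
  rw [← map_mul, ← map_inv, ← map_mul, hg, map_inv]

/-- `Co2` has a non-real element (of order 23). -/
theorem nrel_co2 {K : Type*} [Group K] (h : Spor.IsoCo2 K) : NRel K := by
  have hc : Nat.card K = 42305421312000 := by
    obtain ⟨e⟩ := h
    rw [Nat.card_congr e.toEquiv]
    exact Cfsg.Agent.BiChar.Small.card_Co2
  have hfin : Finite K := Nat.finite_of_card_ne_zero (by rw [hc]; norm_num)
  obtain ⟨e⟩ := h
  have hle : Spor.Co2 ≤ Co0 := inf_le_left
  exact nrel_of_injective ((Subgroup.inclusion hle).comp e.toMonoidHom)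
    ((Subgroup.inclusion_injective hle).comp e.injective) (by rw [hc]; norm_num)

/-- `Co3` has a non-real element (of order 23). -/
theorem nrel_co3 {K : Type*} [Group K] (h : Spor.IsoCo3 K) : NRel K := by
  have hc : Nat.card K = 495766656000 := by
    obtain ⟨e⟩ := h
    rw [Nat.card_congr e.toEquiv]
    exact Cfsg.Agent.BiChar.Small.card_Co3
  have hfin : Finite K := Nat.finite_of_card_ne_zero (by rw [hc]; norm_num)
  obtain ⟨e⟩ := h
  have hle : Spor.Co3 ≤ Co0 := inf_le_left
  exact nrel_of_injective ((Subgroup.inclusion hle).comp e.toMonoidHom)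
    ((Subgroup.inclusion_injective hle).comp e.injective) (by rw [hc]; norm_num)

/-- `Co1` has a non-real element (of order 23). -/
theorem nrel_co1 {K : Type*} [Group K] (h : Spor.IsoCo1 K) : NRel K := by
  obtain ⟨e⟩ := h
  refine NRel.congr e.symm ⟨QuotientGroup.mk' (center Co0) x23, fun hc => ?_⟩
  obtain ⟨g, hg⟩ := isConj_iff.1 hc
  obtain ⟨g, rfl⟩ := QuotientGroup.mk'_surjective (center Co0) g
  have hZ : Nat.card (center Co0) = 2 := Cfsg.Agent.S0398.result
  have h4 : g * x23 * g⁻¹ * x23 ∈ center Co0 := by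
    rw [← QuotientGroup.ker_mk' (center Co0), MonoidHom.mem_ker, map_mul, map_mul, map_mul, map_inv]
    rw [hg, inv_mul_cancel]
  set z := g * x23 * g⁻¹ * x23 with hz
  have h5 : g * x23 * g⁻¹ = z * x23⁻¹ := by rw [hz]; group
  have hz2 : z * z = 1 := by
    have h1 : (⟨z, h4⟩ : center Co0) ^ 2 = 1 := by rw [← hZ]; exact pow_card_eq_one'
    have h2 := congrArg Subtype.val h1
    rw [← pow_two]
    exact h2
  have h6 : (g * x23 * g⁻¹) ^ 23 = 1 := by
    rw [conj_pow, x23_pow, mul_one, mul_inv_cancel]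
  have h7 : Commute z x23⁻¹ := ((mem_center_iff.1 h4 x23⁻¹)).symm
  rw [h5, h7.mul_pow, inv_pow, x23_pow, inv_one, mul_one] at h6
  have h8 : z = 1 := by
    have h9 : z ^ 23 = z * (z * z) ^ 11 := by
      rw [← pow_two, ← pow_mul, ← pow_succ']
    rw [h9, hz2, one_pow, mul_one] at h6
    exact h6
  rw [h8, one_mul] at h5
  exact x23_not h5

end Cfsg.Agent.H220.SR.Conway
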